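import Mathlib
import Cfsg.Agent.Lib.Helper20.MaxSylow
import Cfsg.Agent.Lib.Helper21.Basic
import Cfsg.Agent.S0035

set_option autoImplicit false

namespace Cfsg.Agent.Lib.Helper20

namespace MaxCent

open scoped Pointwise

variable {G : Type*} [Group G]

/-- abbreviation for the centralizer of an element -/
abbrev C (g : G) : Subgroup G := Subgroup.centralizer ({g} : Set G)

theorem mem_C {g x : G} : x ∈ C g ↔ x * g = g * x := by
  rw [Subgroup.mem_centralizer_singleton_iff]

theorem self_mem_C (g : G) : g ∈ C g := mem_C.2 rfl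

theorem C_ne_top {g : G} (hg : g ∉ Subgroup.center G) : C g ≠ ⊤ := by
  intro h
  apply hg
  rw [Subgroup.mem_center_iff]
  intro x
  have : x ∈ C g := h ▸ Subgroup.mem_top x
  exact mem_C.1 this

theorem center_le_C (g : G) : Subgroup.center G ≤ C g := Subgroup.center_le_centralizer _

theorem C_le_C_of_mem_zpowers {g x : G} (hx : x ∈ Subgroup.zpowers g) : C g ≤ C x := by
  intro c hc
  obtain ⟨i, rfl⟩ := hx
  rw [mem_C] at hc ⊢
  exact (Commute.zpow_right (show Commute c g from hc) i).eq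

variable (h : ∀ g : G, g ∉ Subgroup.center G → IsCoatom (C g))
include h

theorem C_eq_of_le {u v : G} (hu : u ∉ Subgroup.center G) (hv : v ∉ Subgroup.center G) (hle : C u ≤ C v) :
    C u = C v :=
  (((h u hu).le_iff.1 hle).resolve_left (C_ne_top hv)).symm

/-- commuting non-central elements of coprime orders have the same centralizer -/
theorem C_eq_of_coprime {u v : G} (hu : u ∉ Subgroup.center G) (hv : v ∉ Subgroup.center G)
    (hc : Commute u v) (hcop : (orderOf u).Coprime (orderOf v)) : C u = C v := by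
  have h1 : u ∈ Subgroup.zpowers (u * v) := by
    obtain ⟨m, hm⟩ := exists_pow_eq_self_of_coprime hcop.symm
    have h2 : (u * v) ^ (orderOf v) = u ^ (orderOf v) := by
      rw [hc.mul_pow, pow_orderOf_eq_one, mul_one]
    have h3 : ((u * v) ^ (orderOf v)) ^ m = u := by rw [h2, hm]
    have h4 : ((u * v) ^ (orderOf v)) ^ m ∈ Subgroup.zpowers (u * v) :=
      Subgroup.pow_mem _ (Subgroup.pow_mem _ (Subgroup.mem_zpowers (u * v)) _) _
    rwa [h3] at h4
  have h2 : v ∈ Subgroup.zpowers (u * v) := by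
    obtain ⟨m, hm⟩ := exists_pow_eq_self_of_coprime hcop
    have h2 : (u * v) ^ (orderOf u) = v ^ (orderOf u) := by
      rw [hc.mul_pow, pow_orderOf_eq_one, one_mul]
    have h3 : ((u * v) ^ (orderOf u)) ^ m = v := by rw [h2, hm]
    have h4 : ((u * v) ^ (orderOf u)) ^ m ∈ Subgroup.zpowers (u * v) :=
      Subgroup.pow_mem _ (Subgroup.pow_mem _ (Subgroup.mem_zpowers (u * v)) _) _
    rwa [h3] at h4
  have huv : u * v ∉ Subgroup.center G := by
    intro h3
    apply hu
    obtain ⟨i, hi⟩ := h1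
    rw [← hi]
    exact Subgroup.zpow_mem _ h3 i
  rw [← C_eq_of_le h huv hu (C_le_C_of_mem_zpowers h1), ← C_eq_of_le h huv hv (C_le_C_of_mem_zpowers h2)]

omit h in
/-- a non-central element has a non-central power of prime power order -/
theorem exists_primary [Finite G] : ∀ (n : ℕ) (g : G), orderOf g = n → g ∉ Subgroup.center G →
    ∃ (p : ℕ) (x : G), p.Prime ∧ x ∈ Subgroup.zpowers g ∧ (∃ k : ℕ, orderOf x = p ^ k) ∧
      x ∉ Subgroup.center G := by
  intro n
  induction n using Nat.strong_induction_on with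
  | _ n ih =>
  intro g hn hg
  have hg1 : orderOf g ≠ 1 := by
    intro h1
    rw [orderOf_eq_one_iff] at h1
    exact hg (h1 ▸ one_mem _)
  set p := (orderOf g).minFac with hp
  have hpp : p.Prime := Nat.minFac_prime hg1
  haveI : Fact p.Prime := ⟨hpp⟩
  obtain ⟨x, hx, y, hy, hgyx, hcop, k, hk⟩ := Cfsg.Agent.Lib.Helper21.exists_p_decomp p g (isOfFinOrder_of_finite g)
  by_cases hyZ : y ∈ Subgroup.center G
  · have hxZ : x ∉ Subgroup.center G := by
      intro h1
      apply hg
      rw [hgyx]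
      exact mul_mem hyZ h1
    have hlt : orderOf x < n := by
      have h1 : orderOf x ∣ orderOf g := orderOf_dvd_of_mem_zpowers hx
      have h2 : orderOf x ≠ orderOf g := by
        intro h3
        rw [h3] at hcop
        have h4 : p ∣ Nat.gcd (orderOf g) p := Nat.dvd_gcd (Nat.minFac_dvd _) dvd_rfl
        rw [hcop.gcd_eq_one] at h4
        exact hpp.one_lt.ne' (Nat.dvd_one.1 h4)
      rw [← hn]
      exact lt_of_le_of_ne (Nat.le_of_dvd (orderOf_pos g) h1) h2
    obtain ⟨q, x', hq, hx', hx'o, hx'Z⟩ := ih _ hlt x rfl hxZ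
    exact ⟨q, x', hq, (Subgroup.zpowers_le.2 hx) hx', hx'o, hx'Z⟩
  · refine ⟨p, y, hpp, hy, ?_, hyZ⟩
    obtain ⟨j, -, hj⟩ := (Nat.dvd_prime_pow hpp).1 (orderOf_dvd_of_pow_eq_one hk)
    exact ⟨j, hj⟩

/-- data attached to a centralizer: a prime `p` and a non-central `p`-element with that centralizer -/
theorem exists_prime_elt [Finite G] {g : G} (hg : g ∉ Subgroup.center G) :
    ∃ (p : ℕ) (x : G), p.Prime ∧ (∃ k : ℕ, orderOf x = p ^ k) ∧ x ∉ Subgroup.center G ∧ C x = C g := by
  obtain ⟨p, x, hp, hx, hxo, hxZ⟩ := exists_primary _ g rfl hg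
  exact ⟨p, x, hp, hxo, hxZ, (C_eq_of_le h hg hxZ (C_le_C_of_mem_zpowers hx)).symm⟩

theorem coprime_central {x : G} {p : ℕ} (hp : p.Prime) (hxZ : x ∉ Subgroup.center G)
    (hxo : ∃ k : ℕ, orderOf x = p ^ k) {m : G} (hm : m ∈ C x) (hmo : (orderOf m).Coprime p) :
    ∀ c ∈ C x, c * m = m * c := by
  intro c hc
  by_cases hmZ : m ∈ Subgroup.center G
  · exact Subgroup.mem_center_iff.1 hmZ c
  · obtain ⟨k, hk⟩ := hxo
    have h1 : C x = C m := C_eq_of_coprime h hxZ hmZ (mem_C.1 hm).symm (by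
      rw [hk]; exact (Nat.Coprime.pow_right k hmo).symm)
    rw [h1] at hc
    exact mem_C.1 hc

omit h in
theorem exists_decomp [Finite G] (p : ℕ) (hp : p.Prime) (m : G) :
    ∃ y w : G, y ∈ Subgroup.zpowers m ∧ w ∈ Subgroup.zpowers m ∧ m = y * w ∧ (∃ j : ℕ, orderOf y = p ^ j) ∧
      (orderOf w).Coprime p := by
  haveI : Fact p.Prime := ⟨hp⟩
  obtain ⟨x, hx, y, hy, hgyx, hcop, k, hk⟩ := Cfsg.Agent.Lib.Helper21.exists_p_decomp p m (isOfFinOrder_of_finite m)
  obtain ⟨j, -, hj⟩ := (Nat.dvd_prime_pow hp).1 (orderOf_dvd_of_pow_eq_one hk)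
  exact ⟨y, x, hy, hx, hgyx, ⟨j, hj⟩, hcop⟩

omit h in
theorem exists_pow_coprime [Finite G] (p : ℕ) (hp : p.Prime) (m : G) :
    ∃ k : ℕ, (orderOf (m ^ p ^ k)).Coprime p := by
  obtain ⟨y, w, hy, hw, hm, ⟨j, hj⟩, hcop⟩ := exists_decomp p hp m
  refine ⟨j, ?_⟩
  have hc : Commute y w := by
    obtain ⟨a, rfl⟩ := hy
    obtain ⟨b, rfl⟩ := hw
    exact (Commute.refl m).zpow_zpow a b
  have h1 : m ^ p ^ j = w ^ p ^ j := by
    conv_lhs => rw [hm]
    rw [hc.mul_pow, ← hj, pow_orderOf_eq_one, one_mul]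
  rw [h1]
  exact Nat.Coprime.coprime_dvd_left (orderOf_pow_dvd _) hcop

theorem isSolvable_C [Finite G] {g : G} (hg : g ∉ Subgroup.center G) : Group.IsSolvable (C g) := by
  obtain ⟨p, x, hp, hxo, hxZ, hC⟩ := exists_prime_elt h hg
  haveI : Fact p.Prime := ⟨hp⟩
  rw [← hC]
  have hpg : IsPGroup p (↥(C x) ⧸ Subgroup.center ↥(C x)) := by
    intro a
    obtain ⟨m, rfl⟩ := QuotientGroup.mk_surjective a
    obtain ⟨k, hk⟩ := exists_pow_coprime p hp (m : G)
    refine ⟨k, ?_⟩
    rw [← QuotientGroup.mk_pow, QuotientGroup.eq_one_iff, Subgroup.mem_center_iff]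
    intro c
    apply Subtype.ext
    exact coprime_central h hp hxZ hxo (Subgroup.pow_mem _ m.2 _) hk c c.2
  haveI := hpg.isNilpotent
  haveI : Group.IsNilpotent ↥(C x) := Group.of_quotient_center_nilpotent inferInstance
  infer_instance

/-- a normal centralizer forces solubility -/
theorem isSolvable_of_normal [Finite G] {g : G} (hg : g ∉ Subgroup.center G) (hn : (C g).Normal) :
    Group.IsSolvable G := by
  obtain ⟨t, ht⟩ : ∃ t : G, t ∉ C g := by
    by_contra hcon
    push Not at hcon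
    exact C_ne_top hg (eq_top_iff.2 fun x _ => hcon x)
  have h1 : C g ⊔ Subgroup.zpowers t = ⊤ := by
    refine ((h g hg).le_iff.1 (le_sup_left : C g ≤ C g ⊔ Subgroup.zpowers t)).resolve_right ?_
    intro h2
    apply ht
    rw [← h2]
    exact (le_sup_right : Subgroup.zpowers t ≤ C g ⊔ Subgroup.zpowers t) (Subgroup.mem_zpowers t)
  exact isSolvable_of_normal_sup (C g) (Subgroup.zpowers t) h1 (isSolvable_C h hg) inferInstance

/-- in a non-abelian centralizer the `p'`-elements are central in `G` -/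
theorem coprime_mem_center [Finite G] {x : G} {p : ℕ} (hp : p.Prime) (hxZ : x ∉ Subgroup.center G)
    (hxo : ∃ k : ℕ, orderOf x = p ^ k) (hna : ¬ IsMulCommutative (C x)) {m : G} (hm : m ∈ C x)
    (hmo : (orderOf m).Coprime p) : m ∈ Subgroup.center G := by
  by_contra hmZ
  apply hna
  obtain ⟨k, hk⟩ := hxo
  have h1 : C x = C m := C_eq_of_coprime h hxZ hmZ (mem_C.1 hm).symm (by
      rw [hk]; exact (Nat.Coprime.pow_right k hmo).symm)
  have key : ∀ a ∈ C x, ∀ c ∈ C x, c * a = a * c := by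
    intro a ha c hc
    obtain ⟨y, w, hy, hw, hayw, ⟨j, hj⟩, hcop⟩ := exists_decomp p hp a
    have hyM : y ∈ C x := (Subgroup.zpowers_le.2 ha) hy
    have hwM : w ∈ C x := (Subgroup.zpowers_le.2 ha) hw
    have h2 : c * w = w * c := coprime_central h hp hxZ ⟨k, hk⟩ hwM hcop c hc
    have h3 : c * y = y * c := by
      by_cases hyZ : y ∈ Subgroup.center G
      · exact Subgroup.mem_center_iff.1 hyZ c
      · have h4 : C y = C m := C_eq_of_coprime h hyZ hmZ (by
          rw [h1] at hyM
          exact mem_C.1 hyM) (by rw [hj]; exact (Nat.Coprime.pow_right j hmo).symm)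
        rw [h1, ← h4] at hc
        exact mem_C.1 hc
    rw [hayw, ← mul_assoc, h3, mul_assoc, h2, mul_assoc]
  exact ⟨⟨fun a b => Subtype.ext (key b b.2 a a.2)⟩⟩

/-- in an abelian centralizer every non-central element has that centralizer -/
theorem C_eq_of_mem_abelian {g u : G} (hg : g ∉ Subgroup.center G) (hab : IsMulCommutative (C g))
    (hu : u ∈ C g) (huZ : u ∉ Subgroup.center G) : C u = C g := by
  refine (C_eq_of_le h hg huZ ?_).symm
  intro c hc
  rw [mem_C]
  exact congrArg Subtype.val (hab.is_comm.comm ⟨c, hc⟩ ⟨u, hu⟩)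

omit h in
theorem conj_mem_C_iff (t a n : G) : n ∈ C (t⁻¹ * a * t) ↔ t * n * t⁻¹ ∈ C a := by
  rw [mem_C, mem_C]
  constructor
  · intro h1
    calc t * n * t⁻¹ * a = t * (n * (t⁻¹ * a * t)) * t⁻¹ := by group
      _ = t * ((t⁻¹ * a * t) * n) * t⁻¹ := by rw [h1]
      _ = _ := by group
  · intro h1
    calc n * (t⁻¹ * a * t) = t⁻¹ * (t * n * t⁻¹ * a) * t := by group
      _ = t⁻¹ * (a * (t * n * t⁻¹)) * t := by rw [h1]
      _ = _ := by group

omit h in
theorem conj_mem_center_iff (t a : G) : t⁻¹ * a * t ∈ Subgroup.center G ↔ a ∈ Subgroup.center G := by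
  constructor
  · intro h1
    have := (inferInstance : (Subgroup.center G).Normal).conj_mem _ h1 t
    simpa [mul_assoc] using this
  · intro h1
    have := (inferInstance : (Subgroup.center G).Normal).conj_mem _ h1 t⁻¹
    simpa [mul_assoc] using this

/-- an abelian centralizer forces solubility -/
theorem isSolvable_of_abelian [Finite G] {g : G} (hg : g ∉ Subgroup.center G)
    (hab : IsMulCommutative (C g)) : Group.IsSolvable G := by
  classical
  by_cases hn : (C g).Normal
  · exact isSolvable_of_normal h hg hn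
  set M := C g with hM
  have hNM : Subgroup.normalizer (M : Set G) = M := by
    refine ((h g hg).le_iff.1 Subgroup.le_normalizer).resolve_left ?_
    intro h1
    exact hn (Subgroup.normalizer_eq_top_iff.1 h1)
  set π := QuotientGroup.mk' (Subgroup.center G) with hπ
  set H := M.map π with hH
  have hmem : ∀ a : G, π a ∈ H ↔ a ∈ M := by
    intro a
    constructor
    · rintro ⟨m, hm, hma⟩
      have h1 : m⁻¹ * a ∈ Subgroup.center G := QuotientGroup.eq.1 hma
      have h2 : m * (m⁻¹ * a) ∈ M := M.mul_mem hm (center_le_C g h1)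
      simpa using h2
    · intro ha
      exact ⟨a, ha, rfl⟩
  have hmemc : ∀ t a : G, π a ∈ MulAut.conj (π t) • H ↔ t⁻¹ * a * t ∈ M := by
    intro t a
    rw [Cfsg.Agent.Lib.Helper1.mem_conj_smul, ← map_inv, ← map_mul, ← map_mul, hmem]
  have hone : ∀ a : G, π a = 1 ↔ a ∈ Subgroup.center G := fun a => QuotientGroup.eq_one_iff a
  have hfrob : Cfsg.IsFrobeniusComplement H := by
    refine ⟨?_, ?_, ?_⟩
    · intro h1
      have h2 : π g ∈ H := (hmem g).2 (self_mem_C g)
      rw [h1, Subgroup.mem_bot, hone] at h2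
      exact hg h2
    · intro h1
      apply C_ne_top hg
      rw [eq_top_iff]
      intro a _
      exact (hmem a).1 (h1 ▸ Subgroup.mem_top _)
    · intro t' ht'
      obtain ⟨t, rfl⟩ := QuotientGroup.mk'_surjective _ t'
      rw [hmem] at ht'
      rw [eq_bot_iff]
      rintro a' ⟨ha1, ha2⟩
      obtain ⟨a, rfl⟩ := QuotientGroup.mk'_surjective _ a'
      have ha1' : a ∈ M := (hmem a).1 ha1
      have ha2' : t⁻¹ * a * t ∈ M := (hmemc t a).1 ha2
      rw [Subgroup.mem_bot, hone]
      by_contra haZ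
      apply ht'
      rw [← hNM, Subgroup.mem_normalizer_iff]
      intro n
      have h1 : C a = M := C_eq_of_mem_abelian h hg hab ha1' haZ
      have h2 : C (t⁻¹ * a * t) = M :=
        C_eq_of_mem_abelian h hg hab ha2' (fun h3 => haZ ((conj_mem_center_iff t a).1 h3))
      rw [← h1, ← conj_mem_C_iff, h2, h1]
  obtain ⟨N, hNk, hNn, hcompl⟩ := Cfsg.Agent.S0035.result H hfrob
  have hNtop : N ≠ ⊤ := by
    intro h1
    have h2 := hcompl.disjoint.eq_bot
    rw [h1, top_inf_eq] at h2
    exact hfrob.1 h2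
  have hker : ∀ a : G, π a ∈ N ↔ (a ∈ Subgroup.center G ∨ ∀ t : G, t⁻¹ * a * t ∉ M) := by
    intro a
    have h1 : π a ∈ N ↔ π a ∈ (N : Set (G ⧸ Subgroup.center G)) := Iff.rfl
    rw [h1, hNk]
    change (π a = 1 ∨ ∀ t', π a ∉ MulAut.conj t' • H) ↔ _
    rw [hone]
    constructor
    · rintro (h2 | h2)
      · exact Or.inl h2
      · right
        intro t ht
        exact h2 (π t) ((hmemc t a).2 ht)
    · rintro (h2 | h2)
      · exact Or.inl h2
      · right
        intro t' ht'
        obtain ⟨t, rfl⟩ := QuotientGroup.mk'_surjective _ t'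
        exact h2 t ((hmemc t a).1 ht')
  have hKab : ∀ a b : G, π a ∈ N → π b ∈ N → a * b = b * a := by
    intro a b ha hb
    by_cases haZ : a ∈ Subgroup.center G
    · exact (Subgroup.mem_center_iff.1 haZ b).symm
    have h1 : C a ≤ N.comap π := by
      intro c hc
      rw [Subgroup.mem_comap]
      by_contra hcN
      rw [hker] at hcN
      push Not at hcN
      obtain ⟨hcZ, t, ht⟩ := hcN
      have h2 : C (t⁻¹ * c * t) = M :=
        C_eq_of_mem_abelian h hg hab ht (fun h3 => hcZ ((conj_mem_center_iff t c).1 h3))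
      have h3 : t⁻¹ * a * t ∈ M := by
        rw [← h2, conj_mem_C_iff]
        have h4 : t * (t⁻¹ * a * t) * t⁻¹ = a := by group
        rw [h4, mem_C]
        exact (mem_C.1 hc).symm
      rcases (hker a).1 ha with h5 | h5
      · exact haZ h5
      · exact h5 t h3
    have h2 : N.comap π ≠ ⊤ := by
      intro h3
      apply hNtop
      rw [eq_top_iff]
      intro a' _
      obtain ⟨a, rfl⟩ := QuotientGroup.mk'_surjective _ a'
      have : a ∈ N.comap π := h3 ▸ Subgroup.mem_top a
      exact this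
    have h3 : N.comap π = C a := ((h a haZ).le_iff.1 h1).resolve_left h2
    have h4 : b ∈ C a := by rw [← h3]; exact hb
    exact (mem_C.1 h4).symm
  have hNs : Group.IsSolvable N := by
    apply Group.isSolvable_of_comm
    rintro ⟨a', ha⟩ ⟨b', hb⟩
    obtain ⟨a, rfl⟩ := QuotientGroup.mk'_surjective _ a'
    obtain ⟨b, rfl⟩ := QuotientGroup.mk'_surjective _ b'
    apply Subtype.ext
    change π a * π b = π b * π a
    rw [← map_mul, ← map_mul, hKab a b ha hb]
  have hMs : Group.IsSolvable M := Group.isSolvable_of_comm fun a b => hab.is_comm.comm a b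
  have hHs : Group.IsSolvable H := Cfsg.Agent.Lib.Helper1.solvable_map π hMs
  haveI : Group.IsSolvable (G ⧸ Subgroup.center G) :=
    isSolvable_of_normal_sup N H hcompl.sup_eq_top hNs hHs
  haveI : Group.IsSolvable (Subgroup.center G) := Group.isSolvable_of_comm fun a b =>
    Subtype.ext (Subgroup.mem_center_iff.1 b.2 a)
  exact Group.isSolvable_of_ker_le_range (Subgroup.center G).subtype π (by
    rw [hπ, QuotientGroup.ker_mk', Subgroup.range_subtype])

end MaxCent

end Cfsg.Agent.Lib.Helper20
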