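import Mathlib
import Cfsg.Agent.Lib.Helper20.MaxCent

set_option autoImplicit false

namespace Cfsg.Agent.Lib.Helper20

namespace MaxCent

open scoped Pointwise

theorem sum_inv_sq_le (N : ℕ) : ∑ k ∈ Finset.Icc 2 (N + 1), (1 : ℚ) / (k : ℚ) ^ 2 ≤ 1 - 1 / ((N : ℚ) + 1) := by
  induction N with
  | zero => simp
  | succ N ih =>
    rw [Finset.sum_Icc_succ_top (by omega)]
    have h1 : (1 : ℚ) / (((N + 1 + 1 : ℕ) : ℚ)) ^ 2 ≤ 1 / ((N : ℚ) + 1) - 1 / (((N + 1 : ℕ) : ℚ) + 1) := by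
      push_cast
      have hN : (0 : ℚ) ≤ N := Nat.cast_nonneg N
      rw [div_sub_div _ _ (by positivity) (by positivity), div_le_div_iff₀ (by positivity) (by positivity)]
      nlinarith
    linarith

theorem sum_inv_sq_lt_one (S : Finset ℕ) (hS : ∀ p ∈ S, 2 ≤ p) : ∑ p ∈ S, (1 : ℚ) / (p : ℚ) ^ 2 < 1 := by
  have hsub : S ⊆ Finset.Icc 2 (S.sup id + 1) := by
    intro p hp
    rw [Finset.mem_Icc]
    refine ⟨hS p hp, ?_⟩
    have : id p ≤ S.sup id := Finset.le_sup hp
    simp only [id] at this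
    omega
  calc ∑ p ∈ S, (1 : ℚ) / (p : ℚ) ^ 2 ≤ ∑ k ∈ Finset.Icc 2 (S.sup id + 1), (1 : ℚ) / (k : ℚ) ^ 2 :=
        Finset.sum_le_sum_of_subset_of_nonneg hsub (fun _ _ _ => by positivity)
    _ ≤ 1 - 1 / (((S.sup id : ℕ) : ℚ) + 1) := sum_inv_sq_le _
    _ < 1 := by
        have : (0 : ℚ) < 1 / (((S.sup id : ℕ) : ℚ) + 1) := by positivity
        linarith

variable {G : Type*} [Group G]

variable (h : ∀ g : G, g ∉ Subgroup.center G → IsCoatom (C g))
include h

theorem isPGroup_quot [Finite G] {x : G} {p : ℕ} (hp : p.Prime) (hxZ : x ∉ Subgroup.center G)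
    (hxo : ∃ k : ℕ, orderOf x = p ^ k) : IsPGroup p (↥(C x) ⧸ Subgroup.center ↥(C x)) := by
  intro a
  obtain ⟨m, rfl⟩ := QuotientGroup.mk_surjective a
  obtain ⟨k, hk⟩ := exists_pow_coprime p hp (m : G)
  refine ⟨k, ?_⟩
  rw [← QuotientGroup.mk_pow, QuotientGroup.eq_one_iff, Subgroup.mem_center_iff]
  intro c
  apply Subtype.ext
  exact coprime_central h hp hxZ hxo (Subgroup.pow_mem _ m.2 _) hk c c.2

/-- the centre of a non-abelian centralizer has index at least `p ^ 2` -/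
theorem sq_mul_card_center_le [Finite G] {x : G} {p : ℕ} (hp : p.Prime) (hxZ : x ∉ Subgroup.center G)
    (hxo : ∃ k : ℕ, orderOf x = p ^ k) (hna : ¬ IsMulCommutative (C x)) :
    p ^ 2 * Nat.card (Subgroup.center ↥(C x)) ≤ Nat.card (C x) := by
  haveI : Fact p.Prime := ⟨hp⟩
  obtain ⟨j, hj⟩ := (isPGroup_quot h hp hxZ hxo).exists_card_eq
  have hj2 : 2 ≤ j := by
    by_contra hcon
    apply hna
    have hcyc : IsCyclic (↥(C x) ⧸ Subgroup.center ↥(C x)) := by
      have hj1 : j = 0 ∨ j = 1 := by omega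
      rcases hj1 with rfl | rfl
      · rw [pow_zero] at hj
        haveI : Subsingleton (↥(C x) ⧸ Subgroup.center ↥(C x)) := (Nat.card_eq_one_iff_unique.1 hj).1
        infer_instance
      · rw [pow_one] at hj
        exact isCyclic_of_prime_card hj
    exact isMulCommutative_of_isCyclic_quotient_center_self _
  rw [← Subgroup.card_mul_index (Subgroup.center ↥(C x)), Subgroup.index_eq_card, hj, mul_comm]
  exact Nat.mul_le_mul_left _ (Nat.pow_le_pow_right hp.pos hj2)

/-- a non-abelian centralizer is the preimage of a Sylow subgroup of `G / Z(G)` (if `G` is not soluble) -/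
theorem exists_sylow_comap [Finite G] (hns : ¬ Group.IsSolvable G) {g : G} (hg : g ∉ Subgroup.center G)
    (hna : ¬ IsMulCommutative (C g)) :
    ∃ (p : ℕ) (_ : p.Prime) (P : Sylow p (G ⧸ Subgroup.center G)),
      C g = (P : Subgroup (G ⧸ Subgroup.center G)).comap (QuotientGroup.mk' (Subgroup.center G)) ∧
      p ^ 2 * Nat.card (Subgroup.center ↥(C g)) ≤ Nat.card (C g) := by
  obtain ⟨p, x, hp, hxo, hxZ, hC⟩ := exists_prime_elt h hg
  haveI : Fact p.Prime := ⟨hp⟩
  rw [← hC] at hna ⊢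
  set π := QuotientGroup.mk' (Subgroup.center G) with hπ
  have hpg : IsPGroup p ((C x).map π) := by
    rintro ⟨a', m, hm, rfl⟩
    obtain ⟨k, hk⟩ := exists_pow_coprime p hp m
    refine ⟨k, ?_⟩
    apply Subtype.ext
    change (π m) ^ p ^ k = 1
    rw [← map_pow]
    exact (QuotientGroup.eq_one_iff _).2 (coprime_mem_center h hp hxZ hxo hna (Subgroup.pow_mem _ hm _) hk)
  obtain ⟨P, hP⟩ := hpg.exists_le_sylow
  refine ⟨p, hp, P, ?_, sq_mul_card_center_le h hp hxZ hxo hna⟩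
  have hle : C x ≤ (P : Subgroup (G ⧸ Subgroup.center G)).comap π := by
    intro m hm
    exact hP ⟨m, hm, rfl⟩
  refine (((h x hxZ).le_iff.1 hle).resolve_left ?_).symm
  intro htop
  apply hns
  have h1 : IsPGroup p (G ⧸ Subgroup.center G) := by
    intro a'
    obtain ⟨a, rfl⟩ := QuotientGroup.mk'_surjective _ a'
    have h2 : a ∈ (P : Subgroup (G ⧸ Subgroup.center G)).comap π := htop ▸ Subgroup.mem_top a
    obtain ⟨k, hk⟩ := P.2 ⟨π a, h2⟩
    exact ⟨k, congrArg Subtype.val hk⟩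
  haveI := h1.isNilpotent
  haveI : Group.IsNilpotent G := Group.of_quotient_center_nilpotent inferInstance
  infer_instance

omit h in
/-- the elements whose centralizer is the preimage of a Sylow `p`-subgroup of `G / Z(G)` -/
def Y (G : Type*) [Group G] (p : ℕ) : Set G :=
  {g : G | g ∉ Subgroup.center G ∧ ∃ P : Sylow p (G ⧸ Subgroup.center G),
    C g = (P : Subgroup (G ⧸ Subgroup.center G)).comap (QuotientGroup.mk' (Subgroup.center G))}

omit h in
theorem card_center_C_split [Finite G] (g0 : G) :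
    Nat.card {w : Subgroup.center ↥(C g0) // ((w : ↥(C g0)) : G) ∉ Subgroup.center G} +
      Nat.card (Subgroup.center G) = Nat.card (Subgroup.center ↥(C g0)) := by
  classical
  have h1 : Nat.card {w : Subgroup.center ↥(C g0) // ((w : ↥(C g0)) : G) ∈ Subgroup.center G} =
      Nat.card (Subgroup.center G) := by
    symm
    apply Nat.card_eq_of_bijective (fun z : Subgroup.center G =>
      (⟨⟨⟨(z : G), center_le_C g0 z.2⟩, by
        rw [Subgroup.mem_center_iff]
        intro c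
        apply Subtype.ext
        exact Subgroup.mem_center_iff.1 z.2 c⟩, z.2⟩ :
        {w : Subgroup.center ↥(C g0) // ((w : ↥(C g0)) : G) ∈ Subgroup.center G}))
    constructor
    · intro a b hab
      apply Subtype.ext
      have := congrArg (fun w : {w : Subgroup.center ↥(C g0) // ((w : ↥(C g0)) : G) ∈ Subgroup.center G} =>
        (((w : Subgroup.center ↥(C g0)) : ↥(C g0)) : G)) hab
      exact this
    · rintro ⟨w, hw⟩
      exact ⟨⟨_, hw⟩, rfl⟩
  rw [← h1, add_comm, ← Nat.card_sum]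
  exact Nat.card_congr (Equiv.sumCompl (fun w : Subgroup.center ↥(C g0) => ((w : ↥(C g0)) : G) ∈ Subgroup.center G))

omit h in
theorem card_Y_le [Finite G] (p : ℕ) [Fact p.Prime] (g0 : G) (hg0 : g0 ∈ Y G p)
    (hsq : p ^ 2 * Nat.card (Subgroup.center ↥(C g0)) ≤ Nat.card (C g0)) :
    p ^ 2 * (Nat.card (Y G p) + Nat.card (Subgroup.center G)) ≤ Nat.card G := by
  classical
  obtain ⟨-, P0, hP0⟩ := hg0
  set M := C g0 with hM
  set π := QuotientGroup.mk' (Subgroup.center G) with hπ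
  let Ws := {w : Subgroup.center ↥M // ((w : ↥M) : G) ∉ Subgroup.center G}
  let f : (G ⧸ M) × Ws → G := fun cw => cw.1.out * (((cw.2 : Subgroup.center ↥M) : ↥M) : G) * cw.1.out⁻¹
  have hsub : Y G p ⊆ Set.range f := by
    rintro g ⟨hgZ, P, hP⟩
    obtain ⟨t', ht'⟩ := MulAction.exists_smul_eq (G ⧸ Subgroup.center G) P0 P
    obtain ⟨t, rfl⟩ := QuotientGroup.mk'_surjective _ t'
    have hconj : ∀ x : G, x ∈ C g ↔ t⁻¹ * x * t ∈ M := by
      intro x
      rw [hP, hP0, Subgroup.mem_comap, Subgroup.mem_comap, ← ht', Sylow.coe_subgroup_smul,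
        Cfsg.Agent.Lib.Helper1.mem_conj_smul, map_mul, map_mul, map_inv]
    have hwM : t⁻¹ * g * t ∈ M := (hconj g).1 (self_mem_C g)
    have hwc : (⟨t⁻¹ * g * t, hwM⟩ : ↥M) ∈ Subgroup.center ↥M := by
      rw [Subgroup.mem_center_iff]
      intro c
      apply Subtype.ext
      change (c : G) * (t⁻¹ * g * t) = t⁻¹ * g * t * (c : G)
      have h1 : t * (c : G) * t⁻¹ ∈ C g := by
        rw [hconj]
        have : t⁻¹ * (t * (c : G) * t⁻¹) * t = c := by group
        rw [this]; exact c.2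
      rw [mem_C] at h1
      calc (c : G) * (t⁻¹ * g * t) = t⁻¹ * (t * (c : G) * t⁻¹ * g) * t := by group
        _ = t⁻¹ * (g * (t * (c : G) * t⁻¹)) * t := by rw [h1]
        _ = _ := by group
    have hwZ : t⁻¹ * g * t ∉ Subgroup.center G := fun h3 => hgZ ((conj_mem_center_iff t g).1 h3)
    refine ⟨(QuotientGroup.mk t, ⟨⟨⟨t⁻¹ * g * t, hwM⟩, hwc⟩, hwZ⟩), ?_⟩
    obtain ⟨u0, hu0⟩ := QuotientGroup.mk_out_eq_mul M t
    change (QuotientGroup.mk t : G ⧸ M).out * (t⁻¹ * g * t) * (QuotientGroup.mk t : G ⧸ M).out⁻¹ = g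
    rw [hu0]
    have h2 := congrArg Subtype.val (Subgroup.mem_center_iff.1 hwc u0)
    have h3 : (u0 : G) * (t⁻¹ * g * t) = t⁻¹ * g * t * (u0 : G) := h2
    calc t * (u0 : G) * (t⁻¹ * g * t) * (t * (u0 : G))⁻¹
        = t * ((u0 : G) * (t⁻¹ * g * t)) * (u0 : G)⁻¹ * t⁻¹ := by group
      _ = t * (t⁻¹ * g * t * (u0 : G)) * (u0 : G)⁻¹ * t⁻¹ := by rw [h3]
      _ = g := by group
  have h1 : Nat.card (Y G p) ≤ M.index * Nat.card Ws := by
    calc Nat.card (Y G p) ≤ Nat.card (Set.range f) := Nat.card_mono (Set.toFinite _) hsub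
      _ ≤ Nat.card ((G ⧸ M) × Ws) := Finite.card_range_le f
      _ = M.index * Nat.card Ws := by rw [Nat.card_prod, ← Subgroup.index_eq_card]
  have h2 : Nat.card Ws + Nat.card (Subgroup.center G) = Nat.card (Subgroup.center ↥M) :=
    card_center_C_split g0
  have hi : 1 ≤ M.index := Nat.one_le_iff_ne_zero.2 Subgroup.index_ne_zero_of_finite
  calc p ^ 2 * (Nat.card (Y G p) + Nat.card (Subgroup.center G))
      ≤ p ^ 2 * (M.index * Nat.card Ws + M.index * Nat.card (Subgroup.center G)) := by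
        apply Nat.mul_le_mul_left
        exact Nat.add_le_add h1 (Nat.le_mul_of_pos_left _ hi)
    _ = M.index * (p ^ 2 * Nat.card (Subgroup.center ↥M)) := by rw [← h2]; ring
    _ ≤ M.index * Nat.card M := Nat.mul_le_mul_left _ hsq
    _ = Nat.card G := by rw [mul_comm]; exact Subgroup.card_mul_index M

/-- a finite group in which all centralizers of non-central elements are maximal is soluble -/
theorem isSolvable [Finite G] : Group.IsSolvable G := by
  classical
  by_contra hns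
  have hna : ∀ g : G, g ∉ Subgroup.center G → ¬ IsMulCommutative (C g) :=
    fun g hg hab => hns (isSolvable_of_abelian h hg hab)
  set n := Nat.card G with hn
  set z := Nat.card (Subgroup.center G) with hz
  have hnpos : 0 < n := Nat.card_pos
  let S : Finset ℕ := (Finset.range (n + 1)).filter (fun p => p.Prime ∧
    ∃ g0 ∈ Y G p, p ^ 2 * Nat.card (Subgroup.center ↥(C g0)) ≤ Nat.card (C g0))
  have hkey : ∀ p ∈ S, p ^ 2 * (Nat.card (Y G p) + z) ≤ n := by
    intro p hp
    obtain ⟨-, hpp, g0, hg0, hsq⟩ := Finset.mem_filter.1 hp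
    haveI : Fact p.Prime := ⟨hpp⟩
    exact card_Y_le p g0 hg0 hsq
  have hcov : ∀ g : G, g ∉ Subgroup.center G → ∃ p ∈ S, g ∈ Y G p := by
    intro g hg
    obtain ⟨p, hp, P, hP, hsq⟩ := exists_sylow_comap h hns hg (hna g hg)
    refine ⟨p, Finset.mem_filter.2 ⟨?_, hp, g, ⟨hg, P, hP⟩, hsq⟩, ⟨hg, P, hP⟩⟩
    rw [Finset.mem_range]
    have h1 : Nat.card (C g) ≤ n := Subgroup.card_le_card_group _
    have h2 : 0 < Nat.card (Subgroup.center ↥(C g)) := Nat.card_pos
    have h3 : p ≤ p ^ 2 := by nlinarith [hp.pos]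
    have h4 : p ^ 2 ≤ p ^ 2 * Nat.card (Subgroup.center ↥(C g)) := Nat.le_mul_of_pos_right _ h2
    omega
  have hSne : S.Nonempty := by
    by_contra hS
    rw [Finset.not_nonempty_iff_eq_empty] at hS
    apply hns
    have hall : ∀ g : G, g ∈ Subgroup.center G := by
      intro g
      by_contra hg
      obtain ⟨p, hp, -⟩ := hcov g hg
      rw [hS] at hp
      exact absurd hp (Finset.notMem_empty p)
    have hc : ∀ a b : G, a * b = b * a := fun a b => (Subgroup.mem_center_iff.1 (hall a) b).symm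
    exact Group.isSolvable_of_comm hc
  have hcount : n ≤ z + ∑ p ∈ S, Nat.card (Y G p) := by
    have hsub : (Set.univ : Set G) ⊆ (Subgroup.center G : Set G) ∪ ⋃ p ∈ S, Y G p := by
      intro g _
      by_cases hg : g ∈ Subgroup.center G
      · exact Or.inl hg
      · obtain ⟨p, hp, hgp⟩ := hcov g hg
        exact Or.inr (Set.mem_biUnion hp hgp)
    calc n = (Set.univ : Set G).ncard := by rw [Set.ncard_univ]
      _ ≤ ((Subgroup.center G : Set G) ∪ ⋃ p ∈ S, Y G p).ncard := Set.ncard_le_ncard hsub (Set.toFinite _)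
      _ ≤ (Subgroup.center G : Set G).ncard + (⋃ p ∈ S, Y G p).ncard := Set.ncard_union_le _ _
      _ ≤ z + ∑ p ∈ S, Nat.card (Y G p) := by
          apply Nat.add_le_add (le_of_eq rfl)
          exact Finset.set_ncard_biUnion_le S (fun p => Y G p)
  have hS2 : ∀ p ∈ S, 2 ≤ p := fun p hp => (Finset.mem_filter.1 hp).2.1.two_le
  have hlt := sum_inv_sq_lt_one S hS2
  have hq : ∀ p ∈ S, ((Nat.card (Y G p) : ℚ) + z) ≤ (n : ℚ) * (1 / (p : ℚ) ^ 2) := by
    intro p hp
    have h1 := hkey p hp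
    have h2 : ((p : ℚ) ^ 2 * ((Nat.card (Y G p) : ℚ) + z)) ≤ (n : ℚ) := by exact_mod_cast h1
    have h3 : (0 : ℚ) < (p : ℚ) ^ 2 := by
      have : (0 : ℚ) < p := by exact_mod_cast (lt_of_lt_of_le (by norm_num) (hS2 p hp))
      positivity
    rw [mul_one_div, le_div_iff₀ h3]
    linarith
  have hsum : (∑ p ∈ S, ((Nat.card (Y G p) : ℚ) + z)) ≤ (n : ℚ) * ∑ p ∈ S, (1 / (p : ℚ) ^ 2) := by
    rw [Finset.mul_sum]
    exact Finset.sum_le_sum hq
  rw [Finset.sum_add_distrib, Finset.sum_const, nsmul_eq_mul] at hsum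
  have hcard : (1 : ℚ) ≤ (S.card : ℚ) := by exact_mod_cast hSne.card_pos
  have hcq : (n : ℚ) ≤ (z : ℚ) + ∑ p ∈ S, (Nat.card (Y G p) : ℚ) := by exact_mod_cast hcount
  have hz0 : (0 : ℚ) ≤ (z : ℚ) := Nat.cast_nonneg z
  have hn0 : (0 : ℚ) < (n : ℚ) := by exact_mod_cast hnpos
  nlinarith

end MaxCent

end Cfsg.Agent.Lib.Helper20
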