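import Mathlib
import Cfsg.Agent.Lib.Helper20.Metacyclic4

set_option autoImplicit false

namespace Cfsg.Agent.Lib.Helper20

universe u

theorem metacyclic_main_aux (p : ℕ) [hpf : Fact p.Prime] (hp : p ≠ 2) : ∀ (N : ℕ) (G : Type u) [Group G] [Finite G],
    Nat.card G = N → IsPGroup p G → Cfsg.IsMetacyclic G → ∀ L : Subgroup G,
      (⁅L, L⁆ = ⊥ → Nat.card L ≤ (commutator G).index) ∧
      (⁅L, L⁆ ≠ ⊥ → Nat.card L = (commutator G).index * Nat.card (⁅L, L⁆ : Subgroup G)) := by
  intro N
  induction N using Nat.strong_induction_on with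
  | _ N ih =>
  intro G _ _ hN hG hmc L
  have hpp : p.Prime := hpf.out
  by_cases hL : L = ⊤
  · subst hL
    constructor
    · intro h
      rw [commutator_def, h, Subgroup.index_bot, Subgroup.card_top]
    · intro _
      rw [← commutator_def, Subgroup.card_top, mul_comm, Subgroup.card_mul_index]
  · obtain ⟨M, hM, hLM⟩ := (eq_top_or_exists_le_coatom L).resolve_left hL
    obtain ⟨hMn, hMi⟩ := Cfsg.Agent.Lib.Helper1.isCoatom_pgroup hG hM
    by_cases hab : commutator G = ⊥
    · constructor
      · intro _
        rw [hab, Subgroup.index_bot]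
        exact Subgroup.card_le_card_group L
      · intro h
        exfalso; apply h
        rw [eq_bot_iff, ← hab, commutator_def]
        exact Subgroup.commutator_mono le_top le_top
    · have hstar := card_commutator_of_index_eq_p hp hG hmc hab M hMi
      have hcardM : Nat.card M * p = Nat.card G := by rw [← hMi]; exact M.card_mul_index
      have hidx : (commutator ↥M).index = (commutator G).index := by
        have h1 := Subgroup.card_mul_index (commutator ↥M)
        have h2 := Subgroup.card_mul_index (commutator G)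
        rw [← hcardM, ← h1, ← hstar] at h2
        have h3 : Nat.card (commutator ↥M) * p * (commutator G).index =
            Nat.card (commutator ↥M) * p * (commutator ↥M).index := by
          rw [h2]; ring
        exact (Nat.eq_of_mul_eq_mul_left (Nat.mul_pos Nat.card_pos hpp.pos) h3).symm
      have hlt : Nat.card M < N := by
        rw [← hN, ← hcardM]
        have h1 : 0 < Nat.card M := Nat.card_pos
        have h2 := hpp.one_lt
        nlinarith
      have IH := ih _ hlt ↥M rfl (hG.to_subgroup M) (isMetacyclic_subgroup hmc M) (L.subgroupOf M)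
      have hmap : (⁅L.subgroupOf M, L.subgroupOf M⁆ : Subgroup M).map M.subtype = ⁅L, L⁆ := by
        rw [Subgroup.map_commutator, Subgroup.map_subgroupOf_eq_of_le hLM]
      have hcard : Nat.card (⁅L.subgroupOf M, L.subgroupOf M⁆ : Subgroup M) = Nat.card (⁅L, L⁆ : Subgroup G) := by
        rw [← hmap, Subgroup.card_map_of_injective M.subtype_injective]
      have hbot : (⁅L.subgroupOf M, L.subgroupOf M⁆ : Subgroup M) = ⊥ ↔ ⁅L, L⁆ = ⊥ := by
        rw [← hmap, Subgroup.map_eq_bot_iff_of_injective _ M.subtype_injective]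
      have hcL : Nat.card (L.subgroupOf M) = Nat.card L :=
        Nat.card_congr (Subgroup.subgroupOfEquivOfLe hLM).toEquiv
      rw [hcard, hcL, hidx] at IH
      exact ⟨fun h => IH.1 (hbot.2 h), fun h => IH.2 (fun h' => h (hbot.1 h'))⟩

variable {G : Type u} [Group G] [Finite G] {p : ℕ} [hpf : Fact p.Prime]

theorem metacyclic_card_le_of_abelian (hp : p ≠ 2) (hG : IsPGroup p G) (hmc : Cfsg.IsMetacyclic G) (L : Subgroup G)
    (hL : IsMulCommutative ↥L) : Nat.card L ≤ (commutator G).index :=
  (metacyclic_main_aux p hp _ G rfl hG hmc L).1 ((isMulCommutative_iff_commutator_eq_bot L).1 hL)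

theorem metacyclic_card_of_nonabelian (hp : p ≠ 2) (hG : IsPGroup p G) (hmc : Cfsg.IsMetacyclic G) (L : Subgroup G)
    (hL : ¬ IsMulCommutative ↥L) : Nat.card L = (commutator G).index * Nat.card (commutator ↥L) := by
  rw [card_commutator_subgroup]
  exact (metacyclic_main_aux p hp _ G rfl hG hmc L).2 (fun h => hL ((isMulCommutative_iff_commutator_eq_bot L).2 h))

theorem metacyclic_abelian_iff (hp : p ≠ 2) (hG : IsPGroup p G) (hmc : Cfsg.IsMetacyclic G) (L : Subgroup G) :
    IsMulCommutative ↥L ↔ Nat.card ↥L ≤ (commutator G).index := by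
  refine ⟨metacyclic_card_le_of_abelian hp hG hmc L, ?_⟩
  intro h
  by_contra hna
  have h1 := metacyclic_card_of_nonabelian hp hG hmc L hna
  have h2 : 1 < Nat.card (commutator ↥L) := by
    rw [card_commutator_subgroup, Subgroup.one_lt_card_iff_ne_bot]
    exact fun h => hna ((isMulCommutative_iff_commutator_eq_bot L).2 h)
  have h3 : 0 < (commutator G).index := Nat.pos_of_ne_zero Subgroup.index_ne_zero_of_finite
  rw [h1] at h
  nlinarith

theorem metacyclic_maximal_abelian_iff (hp : p ≠ 2) (hG : IsPGroup p G) (hmc : Cfsg.IsMetacyclic G)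
    (L : Subgroup G) :
    Maximal (fun K : Subgroup G => IsMulCommutative ↥K) L ↔ Nat.card ↥L = (commutator G).index := by
  have hpp : p.Prime := hpf.out
  constructor
  · intro hmax
    have h1 := metacyclic_card_le_of_abelian hp hG hmc L hmax.1
    by_contra hne
    have hlt : Nat.card L < (commutator G).index := lt_of_le_of_ne h1 hne
    obtain ⟨e, he⟩ := (hG.to_subgroup L).exists_card_eq
    obtain ⟨E, hE⟩ := hG.exists_card_eq
    have h2 : (commutator G).index ∣ p ^ E := hE ▸ Subgroup.index_dvd_card _
    obtain ⟨f, hfE, hf⟩ := (Nat.dvd_prime_pow hpp).1 h2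
    rw [he, hf] at hlt
    have hef : e < f := (Nat.pow_lt_pow_iff_right hpp.one_lt).1 hlt
    obtain ⟨K, hK, hLK⟩ := Sylow.exists_subgroup_card_pow_succ (G := G) (p := p) (n := e)
      (by rw [hE]; exact pow_dvd_pow p (by omega)) he
    have hKab : IsMulCommutative ↥K := by
      rw [metacyclic_abelian_iff hp hG hmc, hK, hf]
      exact Nat.pow_le_pow_right hpp.pos (by omega)
    have h3 := hmax.2 hKab hLK
    have h4 := Subgroup.card_le_of_le h3
    rw [hK, he] at h4
    have h5 : p ^ e < p ^ (e + 1) := Nat.pow_lt_pow_right hpp.one_lt (by omega)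
    omega
  · intro h
    refine ⟨(metacyclic_abelian_iff hp hG hmc L).2 h.le, ?_⟩
    intro K hK hLK
    have h1 := metacyclic_card_le_of_abelian hp hG hmc K hK
    exact (Subgroup.eq_of_le_of_card_ge hLK (by rw [h]; exact h1)).ge

end Cfsg.Agent.Lib.Helper20
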