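import Mathlib
import Cfsg.Agent.Lib.Helper20.Metacyclic5

set_option autoImplicit false

namespace Cfsg.Agent.Lib.Helper20

universe u

/-- a non-cyclic `p`-group has Frattini subgroup of index at least `p^2` -/
theorem card_frattini_mul_le {G : Type*} [Group G] [Finite G] {p : ℕ} [hpf : Fact p.Prime] (hG : IsPGroup p G)
    (hnc : ¬ IsCyclic G) : Nat.card (frattini G) * p ^ 2 ≤ Nat.card G := by
  have hpp : p.Prime := hpf.out
  have hnt : (⊥ : Subgroup G) ≠ ⊤ := by
    intro h
    apply hnc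
    haveI : Subsingleton G := by
      rw [← Subgroup.subsingleton_iff]
      exact subsingleton_of_bot_eq_top h
    exact isCyclic_of_subsingleton
  obtain ⟨M1, hM1, -⟩ := (eq_top_or_exists_le_coatom (⊥ : Subgroup G)).resolve_left hnt
  obtain ⟨x, hx⟩ : ∃ x, x ∉ M1 := by
    by_contra hcon
    push Not at hcon
    exact hM1.1 (eq_top_iff.2 fun g _ => hcon g)
  have hxt : Subgroup.zpowers x ≠ ⊤ := by
    intro h
    apply hnc
    exact ⟨x, fun g => by
      have : g ∈ Subgroup.zpowers x := h ▸ Subgroup.mem_top g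
      exact this⟩
  obtain ⟨M2, hM2, hxM2⟩ := (eq_top_or_exists_le_coatom _).resolve_left hxt
  obtain ⟨hn1, hi1⟩ := Cfsg.Agent.Lib.Helper1.isCoatom_pgroup hG hM1
  have hle : frattini G ≤ M1 ⊓ M2 :=
    le_inf (Cfsg.Agent.Lib.Helper1.le_frattini_iff.1 le_rfl M1 hM1)
      (Cfsg.Agent.Lib.Helper1.le_frattini_iff.1 le_rfl M2 hM2)
  have hlt : M1 ⊓ M2 < M2 := by
    refine lt_of_le_of_ne inf_le_right ?_
    intro h
    apply hx
    have : x ∈ M1 ⊓ M2 := by rw [h]; exact hxM2 (Subgroup.mem_zpowers x)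
    exact this.1
  obtain ⟨hn2, hi2⟩ := Cfsg.Agent.Lib.Helper1.isCoatom_pgroup hG hM2
  have h1 := card_mul_relIndex_of_le (inf_le_right : M1 ⊓ M2 ≤ M2)
  have h2 : p ≤ (M1 ⊓ M2).relIndex M2 := by
    obtain ⟨e, he⟩ := (hG.to_subgroup M2).exists_card_eq
    have h3 : (M1 ⊓ M2).relIndex M2 ∣ p ^ e := he ▸ Dvd.intro_left _ h1
    obtain ⟨j, -, hj⟩ := (Nat.dvd_prime_pow hpp).1 h3
    rcases j with _ | j
    · exfalso
      rw [pow_zero, Subgroup.relIndex_eq_one] at hj
      exact absurd hj (not_le_of_gt hlt)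
    · rw [hj]
      calc p = p ^ 1 := (pow_one p).symm
        _ ≤ p ^ (j + 1) := Nat.pow_le_pow_right hpp.pos (by omega)
  have h3 : Nat.card M2 * p = Nat.card G := by rw [← hi2]; exact M2.card_mul_index
  calc Nat.card (frattini G) * p ^ 2 = Nat.card (frattini G) * p * p := by ring
    _ ≤ Nat.card (M1 ⊓ M2 : Subgroup G) * (M1 ⊓ M2).relIndex M2 * p :=
        Nat.mul_le_mul_right _ (Nat.mul_le_mul (Subgroup.card_le_of_le hle) h2)
    _ = Nat.card G := by rw [h1, h3]

namespace MC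

variable {G : Type*} [Group G] {p : ℕ} (D : MC G p) [Finite G] [hpf : Fact p.Prime]

theorem mem_frattini_iff (hodd : p ≠ 2) (hG : IsPGroup p G) {n : ℕ} (hn : orderOf D.c = p ^ n) (hn1 : 1 ≤ n)
    (g : G) : g ∈ frattini G ↔ (Subgroup.centralizer ({g} : Set G)).index ≤ p ^ (n - 1) := by
  have hpp : p.Prime := hpf.out
  set T := Subgroup.closure {x : G | ∃ y : G, y ^ p ^ 1 = x} with hT
  have hTle : T ≤ frattini G := by
    rw [hT, Subgroup.closure_le]
    rintro x ⟨y, rfl⟩
    rw [pow_one]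
    exact (Cfsg.Agent.Lib.Helper1.pgroup_frattini hG).2 y
  have hTcard : Nat.card T * p ^ (2 * 1) = Nat.card G := by
    rw [← D.card_index_le hodd hG hn hn1]
    congr 1
    apply Nat.card_congr
    apply Equiv.subtypeEquivRight
    intro x
    exact D.mem_closure_pow_iff hodd hG hn hn1 x
  have hnc : ¬ IsCyclic G := by
    intro hc
    have h1 : IsMulCommutative G := hc.isMulCommutative
    have h2 : commutator G = ⊥ := by
      rw [eq_bot_iff, ← Subgroup.Normal.quotient_commutative_iff_commutator_le]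
      refine ⟨⟨fun x y => ?_⟩⟩
      obtain ⟨x, rfl⟩ := QuotientGroup.mk_surjective x
      obtain ⟨y, rfl⟩ := QuotientGroup.mk_surjective y
      rw [← QuotientGroup.mk_mul, ← QuotientGroup.mk_mul, h1.is_comm.comm x y]
    have h3 := D.card_commutator
    rw [h2, Subgroup.card_bot, hn] at h3
    have h4 : 1 < p ^ n := Nat.one_lt_pow (by omega) hpp.one_lt
    omega
  have h1 := card_frattini_mul_le hG hnc
  have hEq : T = frattini G := by
    apply Subgroup.eq_of_le_of_card_ge hTle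
    rw [← hTcard] at h1
    exact Nat.le_of_mul_le_mul_right h1 (pow_pos hpp.pos _)
  rw [← hEq]
  exact D.mem_closure_pow_iff hodd hG hn hn1 g

end MC

end Cfsg.Agent.Lib.Helper20
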