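import Mathlib
import Cfsg.Agent.Lib.Helper20.Metacyclic5

set_option autoImplicit false

namespace Cfsg.Agent.Lib.Helper20

theorem gs_add (r s t : ℕ) : gs r (s + t) = gs r s + r ^ s * gs r t := by
  induction t with
  | zero => simp
  | succ t ih =>
    rw [← add_assoc, gs_succ, ih, gs_succ, pow_add]; ring

theorem gs_mul (r y j : ℕ) : gs r (y * j) = gs r y * gs (r ^ y) j := by
  induction j with
  | zero => simp
  | succ j ih =>
    rw [Nat.mul_succ, gs_add, ih, gs_succ, ← pow_mul]; ring

namespace MC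

variable {G : Type*} [Group G] {p : ℕ} (D : MC G p) [Finite G] [hpf : Fact p.Prime]

/-- if `h` commutes with `x ^ p` then `[h, x]` lies in the subgroup of order `p` of the derived subgroup -/
theorem commutator_mem_of_commute_pow (hodd : p ≠ 2) {n : ℕ} (hn : orderOf D.c = p ^ n) (hn1 : 1 ≤ n)
    (h x : G) (hc : h * x ^ p = x ^ p * h) : h * x * h⁻¹ * x⁻¹ ∈ Subgroup.zpowers (D.c ^ (p ^ (n - 1))) := by
  have hpp : p.Prime := hpf.out
  obtain ⟨u, v, rfl⟩ := D.hgen h
  obtain ⟨x1, y1, rfl⟩ := D.hgen x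
  rw [D.pow_formula, D.commute_iff, gs_mul, pow_eq_pow_iff_modEq, hn] at hc
  rw [D.conj_mul_inv]
  -- gs (r^y1) p = p * q with p ∤ q
  have hρ : D.r ^ y1 = D.d * gs D.r y1 + 1 := pow_eq_mul_gs_add_one D.d y1
  have hdρ : p ∣ D.d * gs D.r y1 := Dvd.dvd.mul_right D.hd _
  have h2 : p ^ 1 ∣ gs (D.r ^ y1) p := by
    rw [hρ]; exact (pow_dvd_gs_iff hodd _ hdρ p 1).2 (by simp)
  rw [pow_one] at h2
  obtain ⟨q, hq⟩ := h2
  have hq' : ¬ p ∣ q := by
    intro hpq
    have h3 : p ^ 2 ∣ gs (D.r ^ y1) p := by rw [hq, sq]; exact Nat.mul_dvd_mul_left _ hpq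
    rw [hρ] at h3
    have h4 := (pow_dvd_gs_iff hodd _ hdρ p 2).1 h3
    have h5 := Nat.le_of_dvd hpp.pos h4
    have h6 : p ^ 1 < p ^ 2 := Nat.pow_lt_pow_right hpp.one_lt (by omega)
    rw [pow_one] at h6
    omega
  rw [hq] at hc
  have hsplit : p ^ n = p * p ^ (n - 1) := by rw [← pow_succ']; congr 1; omega
  have hc2 : p * (x1 * gs D.r v * q) ≡ p * (u * gs D.r y1 * q) [MOD p * p ^ (n - 1)] := by
    rw [← hsplit]
    have e1 : p * (x1 * gs D.r v * q) = x1 * (p * q) * gs D.r v := by ring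
    have e2 : p * (u * gs D.r y1 * q) = u * (gs D.r y1 * (p * q)) := by ring
    rw [e1, e2]; exact hc
  have hc3 := Nat.ModEq.mul_left_cancel' hpp.ne_zero hc2
  have hc4 : x1 * gs D.r v ≡ u * gs D.r y1 [MOD p ^ (n - 1)] := by
    apply Nat.ModEq.cancel_right_of_coprime _ hc3
    rw [Nat.coprime_iff_gcd_eq_one.symm]
    exact Nat.Coprime.pow_left _ ((Nat.Prime.coprime_iff_not_dvd hpp).2 hq')
  set A := x1 * gs D.r v
  set B := u * gs D.r y1
  rcases le_total A B with hAB | hAB
  · have h5 := (Nat.modEq_iff_dvd' hAB).1 hc4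
    obtain ⟨t, ht⟩ := h5
    have h6 : B = p ^ (n - 1) * t + A := by omega
    have h7 : D.c ^ A * (D.c ^ B)⁻¹ = ((D.c ^ (p ^ (n - 1))) ^ t)⁻¹ := by
      rw [h6, pow_add, pow_mul]; group
    rw [h7]
    exact inv_mem (Subgroup.pow_mem _ (Subgroup.mem_zpowers _) _)
  · have h5 := (Nat.modEq_iff_dvd' hAB).1 hc4.symm
    obtain ⟨t, ht⟩ := h5
    have h6 : A = p ^ (n - 1) * t + B := by omega
    have h7 : D.c ^ A * (D.c ^ B)⁻¹ = (D.c ^ (p ^ (n - 1))) ^ t := by
      rw [h6, pow_add, pow_mul]; group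
    rw [h7]
    exact Subgroup.pow_mem _ (Subgroup.mem_zpowers _) _

/-- one step in the Chermak--Delgado measure -/
theorem card_centralizer_step (hodd : p ≠ 2) (hG : IsPGroup p G) (hmc : Cfsg.IsMetacyclic G)
    (R R1 : Subgroup G) (hle : R ≤ R1) (hcard : Nat.card R1 = Nat.card R * p) :
    Nat.card (Subgroup.centralizer (R : Set G)) ≤ Nat.card (Subgroup.centralizer (R1 : Set G)) * p := by
  have hpp : p.Prime := hpf.out
  obtain ⟨D⟩ := exists_MC hG hmc
  obtain ⟨n, hn⟩ := D.exists_orderOf_c hG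
  rcases Nat.eq_zero_or_pos n with rfl | hn1
  · -- G is abelian
    have hc1 : D.c = 1 := by rwa [pow_zero, orderOf_eq_one_iff] at hn
    have hcomm : ∀ g h : G, g * h = h * g := by
      intro g h
      obtain ⟨u, v, rfl⟩ := D.hgen g
      obtain ⟨x, y, rfl⟩ := D.hgen h
      rw [D.commute_iff, hc1, one_pow, one_pow]
    have h1 : Subgroup.centralizer (R1 : Set G) = ⊤ := by
      rw [eq_top_iff]; intro g _
      rw [Subgroup.mem_centralizer_iff]; intro h _; exact hcomm _ _
    rw [h1, Subgroup.card_top]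
    exact (Subgroup.card_le_card_group _).trans (Nat.le_mul_of_pos_right _ hpp.pos)
  -- R has index p in R1
  have hidx : (R.subgroupOf R1).index = p := by
    have h1 := Subgroup.card_mul_index (R.subgroupOf R1)
    rw [Nat.card_congr (Subgroup.subgroupOfEquivOfLe hle).toEquiv, hcard] at h1
    exact Nat.eq_of_mul_eq_mul_left Nat.card_pos h1
  haveI hnorm : (R.subgroupOf R1).Normal := normal_of_index_eq_p (hG.to_subgroup R1) _ hidx
  obtain ⟨x, hxR1, hxR⟩ : ∃ x ∈ R1, x ∉ R := by
    by_contra hcon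
    push Not at hcon
    have h1 := Subgroup.card_le_of_le (show R1 ≤ R from hcon)
    rw [hcard] at h1
    have h2 : 0 < Nat.card R := Nat.card_pos
    have h3 := hpp.one_lt
    nlinarith
  have hxp : x ^ p ∈ R := by
    have h1 := (R.subgroupOf R1).pow_index_mem ⟨x, hxR1⟩
    rw [hidx, Subgroup.mem_subgroupOf] at h1
    exact h1
  have hsup : R ⊔ Subgroup.zpowers x = R1 := by
    have h1 : (R.subgroupOf R1) < (R ⊔ Subgroup.zpowers x).subgroupOf R1 := by
      refine lt_of_le_of_ne ?_ ?_
      · intro y hy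
        rw [Subgroup.mem_subgroupOf] at hy ⊢
        exact le_sup_left (a := R) hy
      · intro h
        apply hxR
        have h2 : (⟨x, hxR1⟩ : R1) ∈ (R ⊔ Subgroup.zpowers x).subgroupOf R1 := by
          rw [Subgroup.mem_subgroupOf]
          exact le_sup_right (a := R) (Subgroup.mem_zpowers x)
        rw [← h, Subgroup.mem_subgroupOf] at h2
        exact h2
    have h2 := eq_top_of_lt_of_index_prime hpp hidx h1
    rw [Subgroup.subgroupOf_eq_top] at h2
    exact le_antisymm (sup_le hle (Subgroup.zpowers_le.2 hxR1)) h2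
  set Ω := Subgroup.zpowers (D.c ^ (p ^ (n - 1))) with hΩ
  have hΩcard : Nat.card Ω = p := by
    rw [hΩ, Nat.card_zpowers, orderOf_pow_of_dvd (pow_ne_zero _ hpp.ne_zero)
      (by rw [hn]; exact pow_dvd_pow p (by omega)), hn, Nat.pow_div (by omega) hpp.pos]
    have : n - (n - 1) = 1 := by omega
    rw [this, pow_one]
  have hΩc : Ω ≤ Subgroup.center G :=
    le_center_of_normal_of_card_eq_p hG Ω (D.zpowers_c_pow_normal _) hΩcard
  set C := Subgroup.centralizer (R : Set G) with hC
  have hmem : ∀ h ∈ C, h * x * h⁻¹ * x⁻¹ ∈ Ω := by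
    intro h hh
    apply D.commutator_mem_of_commute_pow hodd hn hn1
    exact (Subgroup.mem_centralizer_iff.1 hh _ hxp).symm
  let f : C →* Ω := MonoidHom.mk' (fun h => ⟨h * x * (h : G)⁻¹ * x⁻¹, hmem h h.2⟩) (by
    intro h1 h2
    apply Subtype.ext
    have hz := Subgroup.mem_center_iff.1 (hΩc (hmem h2 h2.2)) (h1 : G)
    change ((h1 : G) * h2) * x * ((h1 : G) * h2)⁻¹ * x⁻¹ = ((h1 : G) * x * (h1 : G)⁻¹ * x⁻¹) * ((h2 : G) * x * (h2 : G)⁻¹ * x⁻¹)
    calc ((h1 : G) * h2) * x * ((h1 : G) * h2)⁻¹ * x⁻¹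
        = ((h1 : G) * ((h2 : G) * x * (h2 : G)⁻¹ * x⁻¹)) * x * (h1 : G)⁻¹ * x⁻¹ := by group
      _ = ((((h2 : G) * x * (h2 : G)⁻¹ * x⁻¹)) * (h1 : G)) * x * (h1 : G)⁻¹ * x⁻¹ := by rw [hz]
      _ = ((h2 : G) * x * (h2 : G)⁻¹ * x⁻¹) * ((h1 : G) * x * (h1 : G)⁻¹ * x⁻¹) := by group
      _ = _ := (Subgroup.mem_center_iff.1 (hΩc (hmem h2 h2.2)) _).symm)
  have hker : Nat.card f.ker ≤ Nat.card (Subgroup.centralizer (R1 : Set G)) := by
    apply Nat.card_le_card_of_injective (fun h : f.ker => (⟨((h : C) : G), by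
      have h1 : f h = 1 := h.2
      have h2 : ((h : C) : G) * x * ((h : C) : G)⁻¹ * x⁻¹ = 1 := congrArg Subtype.val h1
      have h3 : ((h : C) : G) * x = x * ((h : C) : G) := by
        have h5 := mul_inv_eq_one.1 h2
        exact mul_inv_eq_iff_eq_mul.1 h5
      have h4 : R1 ≤ Subgroup.centralizer ({((h : C) : G)} : Set G) := by
        rw [← hsup, sup_le_iff, Subgroup.zpowers_le]
        constructor
        · intro y hy
          rw [Subgroup.mem_centralizer_singleton_iff]
          exact Subgroup.mem_centralizer_iff.1 (h : C).2 y hy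
        · rw [Subgroup.mem_centralizer_singleton_iff]
          exact h3.symm
      rw [Subgroup.mem_centralizer_iff]
      intro y hy
      exact Subgroup.mem_centralizer_singleton_iff.1 (h4 hy)⟩ : Subgroup.centralizer (R1 : Set G)))
    intro h1 h2 h
    apply Subtype.ext
    apply Subtype.ext
    have h' := congrArg Subtype.val h
    exact h'
  have h1 := Subgroup.card_mul_index f.ker
  rw [Subgroup.index_ker] at h1
  rw [← h1]
  exact Nat.mul_le_mul hker (hΩcard ▸ Subgroup.card_le_card_group _)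

/-- the Chermak--Delgado measure is bounded by `|G| |Z(G)|` -/
theorem measure_le (hodd : p ≠ 2) (hG : IsPGroup p G) (hmc : Cfsg.IsMetacyclic G) (R : Subgroup G) :
    Nat.card R * Nat.card (Subgroup.centralizer (R : Set G)) ≤ Nat.card G * Nat.card (Subgroup.center G) := by
  have hpp : p.Prime := hpf.out
  induction hk : Nat.card G - Nat.card R using Nat.strong_induction_on generalizing R with
  | _ k ih =>
  by_cases hR : R = ⊤
  · subst hR
    rw [Subgroup.card_top, Subgroup.coe_top, Subgroup.centralizer_univ]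
  · obtain ⟨e, he⟩ := (hG.to_subgroup R).exists_card_eq
    obtain ⟨E, hE⟩ := hG.exists_card_eq
    have hlt : Nat.card R < Nat.card G := by
      by_contra hcon
      push Not at hcon
      apply hR
      apply Subgroup.eq_of_le_of_card_ge le_top
      rw [Subgroup.card_top]; exact hcon
    have heE : e < E := by
      rw [he, hE] at hlt
      exact (Nat.pow_lt_pow_iff_right hpp.one_lt).1 hlt
    obtain ⟨R1, hR1, hle⟩ := Sylow.exists_subgroup_card_pow_succ (G := G) (p := p) (n := e)
      (by rw [hE]; exact pow_dvd_pow p (by omega)) he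
    have hcard : Nat.card R1 = Nat.card R * p := by rw [hR1, he, pow_succ]
    have hstep := card_centralizer_step hodd hG hmc R R1 hle hcard
    have h2 : Nat.card R < Nat.card R1 := by
      rw [hcard]
      have h3 : 0 < Nat.card R := Nat.card_pos
      have h4 := hpp.one_lt
      nlinarith
    have h5 : Nat.card R1 ≤ Nat.card G := Subgroup.card_le_card_group _
    have IH := ih (Nat.card G - Nat.card R1) (by omega) R1 rfl
    calc Nat.card R * Nat.card (Subgroup.centralizer (R : Set G))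
        ≤ Nat.card R * (Nat.card (Subgroup.centralizer (R1 : Set G)) * p) := Nat.mul_le_mul_left _ hstep
      _ = Nat.card R1 * Nat.card (Subgroup.centralizer (R1 : Set G)) := by rw [hcard]; ring
      _ ≤ _ := IH

theorem measure_ge (hodd : p ≠ 2) (hG : IsPGroup p G) (hmc : Cfsg.IsMetacyclic G) (R : Subgroup G)
    (hZ : Subgroup.center G ≤ R) :
    Nat.card G * Nat.card (Subgroup.center G) ≤ Nat.card R * Nat.card (Subgroup.centralizer (R : Set G)) := by
  have hpp : p.Prime := hpf.out
  suffices H : ∀ k : ℕ, ∀ R : Subgroup G, Subgroup.center G ≤ R → Nat.card R = k →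
      Nat.card G * Nat.card (Subgroup.center G) ≤
        Nat.card R * Nat.card (Subgroup.centralizer (R : Set G)) from H _ R hZ rfl
  clear hZ R
  intro k
  induction k using Nat.strong_induction_on with
  | _ k ih =>
  intro R hZ hk
  by_cases hR : R = Subgroup.center G
  · subst hR
    have : Subgroup.centralizer ((Subgroup.center G : Subgroup G) : Set G) = ⊤ :=
      Subgroup.centralizer_eq_top_iff_subset.2 le_rfl
    rw [this, Subgroup.card_top, mul_comm]
  · have hne : (Subgroup.center G).subgroupOf R ≠ ⊤ := by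
      intro h
      rw [Subgroup.subgroupOf_eq_top] at h
      exact hR (le_antisymm h hZ)
    obtain ⟨M0, hM0, hle0⟩ := (eq_top_or_exists_le_coatom _).resolve_left hne
    obtain ⟨-, hi0⟩ := Cfsg.Agent.Lib.Helper1.isCoatom_pgroup (hG.to_subgroup R) hM0
    set R0 := M0.map R.subtype with hR0
    have hR0le : R0 ≤ R := Subgroup.map_subtype_le M0
    have hcard0 : Nat.card R0 = Nat.card M0 := Subgroup.card_map_of_injective R.subtype_injective
    have hcard : Nat.card R = Nat.card R0 * p := by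
      rw [hcard0, ← hi0, Subgroup.card_mul_index]
    have hZ0 : Subgroup.center G ≤ R0 := by
      intro z hz
      exact ⟨⟨z, hZ hz⟩, hle0 (by rw [Subgroup.mem_subgroupOf]; exact hz), rfl⟩
    have hstep := card_centralizer_step hodd hG hmc R0 R hR0le hcard
    have hlt : Nat.card R0 < k := by
      rw [← hk, hcard]
      have h3 : 0 < Nat.card R0 := Nat.card_pos
      have h4 := hpp.one_lt
      nlinarith
    have IH := ih _ hlt R0 hZ0 rfl
    calc Nat.card G * Nat.card (Subgroup.center G)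
        ≤ Nat.card R0 * Nat.card (Subgroup.centralizer (R0 : Set G)) := IH
      _ ≤ Nat.card R0 * (Nat.card (Subgroup.centralizer (R : Set G)) * p) := Nat.mul_le_mul_left _ hstep
      _ = _ := by rw [hcard]; ring

theorem measure_eq (hodd : p ≠ 2) (hG : IsPGroup p G) (hmc : Cfsg.IsMetacyclic G) (R : Subgroup G)
    (hZ : Subgroup.center G ≤ R) :
    Nat.card R * Nat.card (Subgroup.centralizer (R : Set G)) = Nat.card G * Nat.card (Subgroup.center G) :=
  le_antisymm (measure_le hodd hG hmc R) (measure_ge hodd hG hmc R hZ)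

end MC

end Cfsg.Agent.Lib.Helper20
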